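import Cfsg.Agent.S0809

set_option autoImplicit false
open Cfsg

namespace CfsgL.SL2Prod

universe u v

variable {G : Type u} [Group G]

theorem hs {F : Type v} [Field F] [Fintype F] (hF : Odd (Fintype.card F)) : 
      (∃ J : CfsgH7.SL2 F, J * J = CfsgH9.SLt.m1) ∧ (∀ a b : CfsgH7.SL2 F, 
        a * a = CfsgH9.SLt.m1 → b * b = CfsgH9.SLt.m1 → ∃ g, g * a * g⁻¹ = b) := by
  have h2 := CfsgH9.SLt.two_ne_zero_of_card (F := F) hF
  constructor
  · refine ⟨⟨!![0, 1; -1, 0], by simp [Matrix.det_fin_two]⟩, ?_⟩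
    refine CfsgH9.SLt.sq_eq_m1_iff.2 ?_
    simp [CfsgH7.tr2]
  · intro a b ha hb
    exact isConj_iff.mp (CfsgH9.SLt.conj_of_tr (CfsgH9.SLt.tr0_ne h2 ha)
      (by rw [CfsgH9.SLt.sq_eq_m1_iff.mp ha, CfsgH9.SLt.sq_eq_m1_iff.mp hb]))

theorem hdata {j : G} (hjj : j * j = 1) (hj1 : j ≠ 1) {F : Type v} [Field F] [Fintype F] (hF : Odd (Fintype.card F)) (L : Subgroup G) (e : ↥L ≃* CfsgH7.SL2 F)
      (hjL : j ∈ L) : (∃ a ∈ L, a * a = j) ∧ (∀ a ∈ L, a * a = 1 → a = 1 ∨ a = j) ∧ (∀ a ∈ L, ∀ b ∈ L, a * a = j → b * b = j → ∃ g ∈ L, g * a * g⁻¹ = b) := by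
    obtain ⟨⟨J, hJ⟩, hcon⟩ := hs (F := F) hF
    have h2 := CfsgH9.SLt.two_ne_zero_of_card (F := F) hF
    have hu : ∀ a ∈ L, a * a = 1 → a ≠ 1 → ∀ h : a ∈ L, e ⟨a, h⟩ = CfsgH9.SLt.m1 := by
      intro a ha haa ha1 h
      apply CfsgH9.SLt.inv_unique h2
      · rw [← map_mul]
        have : (⟨a, h⟩ : ↥L) * ⟨a, h⟩ = 1 := Subtype.ext haa
        rw [this, map_one]
      · intro h3
        apply ha1
        have : (⟨a, h⟩ : ↥L) = 1 := by apply e.injective; rw [h3, map_one]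
        exact congrArg Subtype.val this
    have hej := hu j hjL hjj hj1 hjL
    have hsq : ∀ a : ↥L, e a * e a = CfsgH9.SLt.m1 ↔ (a : G) * a = j := by
      intro a
      rw [← hej, ← map_mul, e.injective.eq_iff]
      constructor
      · intro h; exact congrArg Subtype.val h
      · intro h; exact Subtype.ext h
    refine ⟨⟨(e.symm J : ↥L), (e.symm J).2, ?_⟩, ?_, ?_⟩
    · rw [← hsq, e.apply_symm_apply]; exact hJ
    · intro a ha haa
      by_cases ha1 : a = 1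
      · exact Or.inl ha1
      · right
        have h3 := hu a ha haa ha1 ha
        have h4 : (⟨a, ha⟩ : ↥L) = ⟨j, hjL⟩ := by apply e.injective; rw [h3, hej]
        exact congrArg Subtype.val h4
    · intro a ha b hb haa hbb
      obtain ⟨g, hg⟩ := hcon (e ⟨a, ha⟩) (e ⟨b, hb⟩) ((hsq ⟨a, ha⟩).2 haa) ((hsq ⟨b, hb⟩).2 hbb)
      refine ⟨(e.symm g : ↥L), (e.symm g).2, ?_⟩
      have h5 : e.symm g * ⟨a, ha⟩ * (e.symm g)⁻¹ = ⟨b, hb⟩ := by
        apply e.injective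
        rw [map_mul, map_mul, map_inv, e.apply_symm_apply]; exact hg
      exact congrArg Subtype.val h5

end CfsgL.SL2Prod
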