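import Mathlib
import Cfsg.Agent.H3.FratAut
/-!
Element orders of direct powers of `GL_n(2)`.
-/
set_option autoImplicit false
set_option maxHeartbeats 400000
namespace CfsgL.Spec2

/-! ### arithmetic part -/

theorem exists_comp {L : Type*} [Group L] [Finite L] {k : ℕ} (x : Fin k → L) {p e : ℕ}
    (hp : p.Prime) (he : 1 ≤ e) (h : p ^ e ∣ orderOf x) : ∃ i, p ^ e ∣ orderOf (x i) := by
  by_contra hcon
  push Not at hcon
  have hm0 : orderOf x ≠ 0 := (orderOf_pos x).ne'
  obtain ⟨a, r, hr, hm⟩ := Nat.exists_eq_pow_mul_and_not_dvd hm0 p hp.ne_one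
  have hea : e ≤ a := by
    rw [hm] at h
    have h1 : (p ^ e).Coprime r := (Nat.Prime.coprime_iff_not_dvd hp).2 hr |>.pow_left e
    exact (Nat.pow_dvd_pow_iff_le_right hp.one_lt).1 (h1.dvd_of_dvd_mul_right h)
  have h1 : ∀ i, (x i) ^ (p ^ (e - 1) * r) = 1 := by
    intro i
    rw [← orderOf_dvd_iff_pow_eq_one]
    have h2 : orderOf (x i) ∣ p ^ a * r := by
      rw [← hm, orderOf_dvd_iff_pow_eq_one]
      exact congrFun (pow_orderOf_eq_one x) i
    obtain ⟨b, s, hs, hbs⟩ := Nat.exists_eq_pow_mul_and_not_dvd (orderOf_pos (x i)).ne' p hp.ne_one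
    have hb : b < e := by
      by_contra hb
      push Not at hb
      exact hcon i (by rw [hbs]; exact (pow_dvd_pow p hb).mul_right s)
    rw [hbs] at h2 ⊢
    apply Nat.mul_dvd_mul
    · exact pow_dvd_pow p (by omega)
    · have h3 : s.Coprime (p ^ a) := ((Nat.Prime.coprime_iff_not_dvd hp).2 hs).symm.pow_right a
      exact h3.dvd_of_dvd_mul_left ((Dvd.intro_left _ rfl).trans h2)
  have h2 : x ^ (p ^ (e - 1) * r) = 1 := by
    funext i
    exact h1 i
  have h3 := orderOf_dvd_of_pow_eq_one h2
  rw [hm] at h3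
  have hr0 : 0 < r := by
    rcases Nat.eq_zero_or_pos r with h4 | h4
    · rw [h4] at hr; simp at hr
    · exact h4
  have h4 := Nat.dvd_of_mul_dvd_mul_right hr0 h3
  have h5 := (Nat.pow_dvd_pow_iff_le_right hp.one_lt).1 h4
  omega

theorem main {L : Type*} [Group L] [Finite L] (n k : ℕ) (hn : 1 ≤ n) (hk : (n + 3) / 2 ≤ k)
    (h1 : ∀ p e, p.Prime → p ≠ 2 → 1 ≤ e → (∃ g : L, orderOf g = p ^ e) →
      ∃ d, 1 ≤ d ∧ d ≤ n ∧ p ^ e ∣ 2 ^ d - 1)
    (h2 : ∀ d, 1 ≤ d → d ≤ n → ∃ g : L, orderOf g = 2 ^ d - 1) :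
    Set.range (orderOf : (Fin k → L) → ℕ) = Set.range (orderOf : (Fin ((n + 3) / 2) → L) → ℕ) := by
  have hdiv : ∀ a b, (∃ g : L, orderOf g = a) → b ∣ a → ∃ g : L, orderOf g = b := by
    rintro a b ⟨g, rfl⟩ ⟨c, hc⟩
    refine ⟨g ^ c, ?_⟩
    have hg : 0 < orderOf g := orderOf_pos g
    have hc0 : c ≠ 0 := by rintro rfl; omega
    rw [orderOf_pow_of_dvd hc0 ⟨b, by rw [hc, mul_comm]⟩, hc]
    exact Nat.mul_div_cancel _ (Nat.pos_of_ne_zero hc0)
  apply Set.Subset.antisymm
  · rintro _ ⟨x, rfl⟩
    let m := orderOf x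
    have hm0 : 0 < m := orderOf_pos x
    have hpp : ∀ p e, p.Prime → p ^ e ∣ m → ∃ g : L, orderOf g = p ^ e := by
      intro p e hp he
      by_cases he0 : e = 0
      · exact ⟨1, by rw [orderOf_one, he0, pow_zero]⟩
      obtain ⟨i, hi⟩ := exists_comp x hp (Nat.one_le_iff_ne_zero.2 he0) he
      exact hdiv _ _ ⟨x i, rfl⟩ hi
    let o : Fin ((n + 3) / 2) → ℕ := fun i =>
      if i.1 = 0 then 2 ^ (m.factorization 2) else Nat.gcd m (2 ^ (n + 1 - i.1) - 1)
    have ho : ∀ i, ∃ g : L, orderOf g = o i := by
      intro i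
      by_cases hi : i.1 = 0
      · simp only [o, hi, if_true]
        exact hpp 2 _ Nat.prime_two (Nat.ordProj_dvd m 2)
      · simp only [o, hi, if_false]
        exact hdiv _ _ (h2 (n + 1 - i.1) (by have := i.2; omega) (by omega)) (Nat.gcd_dvd_right _ _)
    choose y hy using ho
    refine ⟨y, ?_⟩
    have hom : ∀ i, o i ∣ m := by
      intro i
      by_cases hi : i.1 = 0
      · simp only [o, hi, if_true]
        exact Nat.ordProj_dvd m 2
      · simp only [o, hi, if_false]
        exact Nat.gcd_dvd_left _ _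
    apply Nat.dvd_antisymm
    · rw [orderOf_dvd_iff_pow_eq_one]
      funext i
      change (y i) ^ m = 1
      rw [← orderOf_dvd_iff_pow_eq_one, hy]
      exact hom i
    · have hj : ∀ i, o i ∣ orderOf y := by
        intro i
        rw [← hy i, orderOf_dvd_iff_pow_eq_one]
        exact congrFun (pow_orderOf_eq_one y) i
      change m ∣ orderOf y
      rw [Nat.dvd_iff_prime_pow_dvd_dvd]
      intro p e hp he
      by_cases he0 : e = 0
      · rw [he0, pow_zero]; exact one_dvd _
      by_cases hp2 : p = 2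
      · subst hp2
        have h3 : 2 ^ e ∣ 2 ^ (m.factorization 2) := by
          apply pow_dvd_pow
          exact (hp.pow_dvd_iff_le_factorization hm0.ne').1 he
        have h4 := hj ⟨0, by omega⟩
        simp only [o, if_true] at h4
        exact h3.trans h4
      · obtain ⟨d, hd1, hdn, hd⟩ := h1 p e hp hp2 (Nat.one_le_iff_ne_zero.2 he0) (hpp p e hp he)
        -- a multiple of `d` in the upper half
        obtain ⟨d', hdd, hd2, hdn'⟩ : ∃ d', d ∣ d' ∧ n < 2 * d' ∧ d' ≤ n := by
          refine ⟨d * (n / d), Dvd.intro _ rfl, ?_, Nat.mul_div_le n d⟩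
          have h3 := Nat.div_add_mod n d
          have h4 := Nat.mod_lt n (show 0 < d by omega)
          have h5 : 1 ≤ n / d := Nat.div_pos hdn (by omega)
          have h6 : d * 1 ≤ d * (n / d) := Nat.mul_le_mul_left d h5
          omega
        have h3 : 2 ^ d - 1 ∣ 2 ^ d' - 1 := by
          have := Nat.pow_sub_pow_dvd_pow_sub_pow 2 1 hdd
          simpa using this
        have h4 := hj ⟨n + 1 - d', by omega⟩
        have h5 : n + 1 - d' ≠ 0 := by omega
        have h6 : n + 1 - (n + 1 - d') = d' := by omega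
        simp only [o, h5, if_false, h6] at h4
        exact (Nat.dvd_gcd he (hd.trans h3)).trans h4
  · rintro _ ⟨x, rfl⟩
    let y : Fin k → L := fun i => if h : i.1 < (n + 3) / 2 then x ⟨i.1, h⟩ else 1
    refine ⟨y, ?_⟩
    have h3 : ∀ j : ℕ, y ^ j = 1 ↔ x ^ j = 1 := by
      intro j
      constructor
      · intro h
        funext i
        have h4 := congrFun h ⟨i.1, lt_of_lt_of_le i.2 hk⟩
        change (y ⟨i.1, _⟩) ^ j = 1 at h4
        simp only [y, i.2, dif_pos] at h4
        exact h4
      · intro h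
        funext i
        change (y i) ^ j = 1
        by_cases hi : i.1 < (n + 3) / 2
        · simp only [y, hi, dif_pos]
          exact congrFun h ⟨i.1, hi⟩
        · simp only [y, hi]
          simp
    apply Nat.dvd_antisymm
    · rw [orderOf_dvd_iff_pow_eq_one, h3]; exact pow_orderOf_eq_one x
    · rw [orderOf_dvd_iff_pow_eq_one, ← h3]; exact pow_orderOf_eq_one y

/-! ### linear part -/

section
variable {F : Type*} [Field F] [Fintype F]

/-- projective special linear = general linear over two elements, element orders -/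
theorem psl_iff (hF : Fintype.card F = 2) (n a : ℕ) :
    (∃ g : Matrix.ProjectiveSpecialLinearGroup (Fin n) F, orderOf g = a) ↔
      ∃ g : Matrix.GeneralLinearGroup (Fin n) F, orderOf g = a := by
  classical
  have hF1 : ∀ x : F, x ≠ 0 → x = 1 := by
    intro x hx
    by_contra h1
    have h2 : ({0, 1, x} : Finset F).card ≤ Fintype.card F := Finset.card_le_univ _
    rw [Finset.card_eq_three.2 ⟨0, 1, x, zero_ne_one, Ne.symm hx, Ne.symm h1, rfl⟩, hF] at h2
    omega
  have hcen : Subgroup.center (Matrix.SpecialLinearGroup (Fin n) F) = ⊥ := by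
    rw [eq_bot_iff]
    intro A hA
    rw [Matrix.SpecialLinearGroup.mem_center_iff] at hA
    obtain ⟨r, hr, hA⟩ := hA
    rw [Subgroup.mem_bot]
    apply Subtype.ext
    by_cases hn : n = 0
    · subst hn
      ext i
      exact i.elim0
    · have hr1 : r = 1 := by
        apply hF1
        rintro rfl
        rw [Fintype.card_fin, zero_pow hn] at hr
        exact zero_ne_one hr
      rw [← hA, hr1]
      simp
  have hinj : Function.Injective (QuotientGroup.mk' (Subgroup.center
      (Matrix.SpecialLinearGroup (Fin n) F))) := by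
    rw [← MonoidHom.ker_eq_bot_iff, QuotientGroup.ker_mk', hcen]
  have hinj2 : Function.Injective
      (Matrix.SpecialLinearGroup.toGL : Matrix.SpecialLinearGroup (Fin n) F →* _) :=
    Matrix.SpecialLinearGroup.toGL_injective
  constructor
  · rintro ⟨g, rfl⟩
    obtain ⟨s, rfl⟩ := QuotientGroup.mk'_surjective _ g
    exact ⟨Matrix.SpecialLinearGroup.toGL s, by
      rw [orderOf_injective _ hinj2, orderOf_injective _ hinj]⟩
  · rintro ⟨g, rfl⟩
    have hdet : (g : Matrix (Fin n) (Fin n) F).det = 1 := by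
      apply hF1
      have := (Matrix.GeneralLinearGroup.det g).ne_zero
      exact this
    obtain ⟨s, hs⟩ : ∃ s : Matrix.SpecialLinearGroup (Fin n) F,
        Matrix.SpecialLinearGroup.toGL s = g := ⟨⟨g, hdet⟩, Units.ext rfl⟩
    refine ⟨QuotientGroup.mk' _ s, ?_⟩
    rw [orderOf_injective _ hinj, ← hs, orderOf_injective _ hinj2]

/-- Singer-type elements -/
theorem exists_singer (hF : Fintype.card F = 2) (n d : ℕ) (hd : 1 ≤ d) (hdn : d ≤ n) :
    ∃ g : Matrix.GeneralLinearGroup (Fin n) F, orderOf g = 2 ^ d - 1 := by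
  haveI : Fact (Nat.Prime 2) := ⟨Nat.prime_two⟩
  haveI : CharP F 2 := by
    obtain ⟨q, hq⟩ := CharP.exists F
    obtain ⟨m, hqp, hm⟩ := FiniteField.card F q
    rw [hF] at hm
    have h1 : q ∣ 2 := by rw [hm]; exact dvd_pow_self q m.pos.ne'
    have h2 : q = 2 := (Nat.prime_dvd_prime_iff_eq hqp Nat.prime_two).1 h1
    rw [← h2]; exact hq
  haveI : NeZero d := ⟨by omega⟩
  let K := FiniteField.Extension F 2 d
  have hK : Nat.card K = 2 ^ d := by
    rw [FiniteField.natCard_extension, Nat.card_eq_fintype_card, hF]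
  haveI : Fintype K := Fintype.ofFinite K
  let V := K × (Fin (n - d) → F)
  have hfin : Module.finrank F V = n := by
    rw [Module.finrank_prod, FiniteField.finrank_extension, Module.finrank_fin_fun]
    omega
  let b : Module.Basis (Fin n) F V := Module.finBasisOfFinrankEq F V hfin
  obtain ⟨ζ, hζ⟩ := IsCyclic.exists_generator (α := Kˣ)
  have hord : orderOf ζ = 2 ^ d - 1 := by
    rw [orderOf_eq_card_of_forall_mem_zpowers hζ, Nat.card_units, hK]
  let ψ : Kˣ →* (Module.End F V)ˣ :=
    Units.map
      { toFun := fun k : K => LinearMap.prodMap (LinearMap.mulLeft F k) LinearMap.id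
        map_one' := by
          apply LinearMap.ext
          intro v
          apply Prod.ext
          · change (1 : K) * v.1 = v.1
            rw [one_mul]
          · rfl
        map_mul' := fun a c => by
          apply LinearMap.ext
          intro v
          apply Prod.ext
          · change (a * c) * v.1 = a * (c * v.1)
            rw [mul_assoc]
          · rfl }
  have hψ : Function.Injective ψ := by
    intro a c h
    apply Units.ext
    have h1 := congrArg (fun u : (Module.End F V)ˣ => ((u : Module.End F V) (1, 0)).1) h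
    change (a : K) * 1 = (c : K) * 1 at h1
    rwa [mul_one, mul_one] at h1
  refine ⟨(Matrix.GeneralLinearGroup.toLin' b).symm (ψ ζ), ?_⟩
  rw [← hord, ← orderOf_injective ψ hψ ζ]
  exact orderOf_injective (Matrix.GeneralLinearGroup.toLin' b).symm.toMonoidHom
    (Matrix.GeneralLinearGroup.toLin' b).symm.injective _

/-- odd prime power orders -/
theorem exists_dim (hF : Fintype.card F = 2) (n p e : ℕ) (hp : p.Prime) (hp2 : p ≠ 2) (he : 1 ≤ e)
    (g : Matrix.GeneralLinearGroup (Fin n) F) (hg : orderOf g = p ^ e) :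
    ∃ d, 1 ≤ d ∧ d ≤ n ∧ p ^ e ∣ 2 ^ d - 1 := by
  haveI : Fact p.Prime := ⟨hp⟩
  let V := Fin n → F
  haveI : Finite (Module.End F V)ˣ :=
    Finite.of_equiv _ (Matrix.GeneralLinearGroup.toLin (n := Fin n) (R := F)).toEquiv
  let A : (Module.End F V)ˣ := Matrix.GeneralLinearGroup.toLin g
  have hA : orderOf A = p ^ e := by
    rw [← hg]
    exact orderOf_injective (Matrix.GeneralLinearGroup.toLin (n := Fin n) (R := F)).toMonoidHom
      (Matrix.GeneralLinearGroup.toLin (n := Fin n) (R := F)).injective g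
  have h2F : (2 : F) = 0 := by
    have h1 : ((Fintype.card F : ℕ) : F) = 0 := Nat.cast_card_eq_zero F
    rw [hF] at h1
    exact_mod_cast h1
  let B : (Module.End F V)ˣ := A ^ p ^ (e - 1)
  have hBp : B ^ p = 1 := by
    change (A ^ p ^ (e - 1)) ^ p = 1
    rw [← pow_mul, ← pow_succ, Nat.sub_add_cancel he, ← hA, pow_orderOf_eq_one]
  have hB1 : B ≠ 1 := by
    intro h
    have h1 := orderOf_dvd_of_pow_eq_one h
    rw [hA] at h1
    have := (Nat.pow_dvd_pow_iff_le_right hp.one_lt).1 h1
    omega
  -- the commutator space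
  let β : Module.End F V := (B : Module.End F V) - 1
  let W := LinearMap.range β
  have hW0 : W ≠ ⊥ := by
    intro h
    apply hB1
    apply Units.ext
    have h1 : β = 0 := LinearMap.range_eq_bot.1 h
    exact sub_eq_zero.1 h1
  -- no fixed points of B in W
  have hpF : ((p : ℕ) : F) ≠ 0 := by
    intro h
    have hodd : p % 2 = 1 := by
      rcases hp.eq_two_or_odd with h1 | h1
      · exact absurd h1 hp2
      · exact h1
    have h1 : p = 2 * (p / 2) + 1 := by omega
    rw [h1] at h
    push_cast at h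
    rw [h2F] at h
    simp at h
  have hfree : ∀ w ∈ W, (B : Module.End F V) w = w → w = 0 := by
    rintro w ⟨u, rfl⟩ hw
    have h1 : (B : Module.End F V) u = u + β u := by
      change _ = u + ((B : Module.End F V) u - u)
      abel
    have h2 : ∀ j : ℕ, ((B ^ j : (Module.End F V)ˣ) : Module.End F V) u = u + (j : F) • β u := by
      intro j
      induction j with
      | zero => simp
      | succ j ih =>
        rw [pow_succ']
        change (B : Module.End F V) (((B ^ j : (Module.End F V)ˣ) : Module.End F V) u) = _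
        rw [ih, map_add, map_smul, hw, h1]
        push_cast
        rw [add_smul, one_smul]
        abel
    have h3 := h2 p
    rw [hBp] at h3
    have h4 : (p : F) • β u = 0 := by
      have : u = u + (p : F) • β u := h3
      exact left_eq_add.1 this
    exact (smul_eq_zero.1 h4).resolve_left hpF
  -- W is invariant
  have hcomm : ∀ (j : ℕ) v, ((A ^ j : (Module.End F V)ˣ) : Module.End F V) (β v) =
      β (((A ^ j : (Module.End F V)ˣ) : Module.End F V) v) := by
    intro j v
    have h1 : A ^ j * B = B * A ^ j := by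
      change A ^ j * A ^ p ^ (e - 1) = A ^ p ^ (e - 1) * A ^ j
      rw [← pow_add, ← pow_add, add_comm]
    have h2 := congrArg (fun u : (Module.End F V)ˣ => (u : Module.End F V) v) h1
    change ((A ^ j : (Module.End F V)ˣ) : Module.End F V) ((B : Module.End F V) v) =
      (B : Module.End F V) (((A ^ j : (Module.End F V)ˣ) : Module.End F V) v) at h2
    change ((A ^ j : (Module.End F V)ˣ) : Module.End F V) ((B : Module.End F V) v - v) =
      (B : Module.End F V) (((A ^ j : (Module.End F V)ˣ) : Module.End F V) v) - _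
    rw [map_sub, h2]
    rfl
  have hinv : ∀ a ∈ Subgroup.zpowers A, ∀ w ∈ W, (a : Module.End F V) w ∈ W := by
    intro a ha w hw
    obtain ⟨j, rfl⟩ : ∃ j : ℕ, A ^ j = a := by
      have := (Subgroup.mem_zpowers_iff.1 ha)
      exact mem_powers_iff_mem_zpowers.2 ha
    obtain ⟨v, rfl⟩ := hw
    rw [hcomm]
    exact ⟨_, rfl⟩
  have hann : ∀ (a : (Module.End F V)ˣ) (v : V), ((a⁻¹ : (Module.End F V)ˣ) : Module.End F V)
      ((a : Module.End F V) v) = v := by
    intro a v
    have := congrArg (fun u : (Module.End F V)ˣ => (u : Module.End F V) v) (inv_mul_cancel a)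
    exact this
  let Y := {w : V // w ∈ W ∧ w ≠ 0}
  letI : MulAction (Subgroup.zpowers A) Y :=
    { smul := fun a y => ⟨(a.1 : Module.End F V) y.1, hinv a.1 a.2 y.1 y.2.1, fun h => y.2.2 (by
        have := hann a.1 y.1
        rw [h, map_zero] at this
        exact this.symm)⟩
      one_smul := fun y => rfl
      mul_smul := fun a c y => rfl }
  have h1 : Nat.card (Subgroup.zpowers A) ∣ Nat.card Y := by
    apply CfsgH3.card_dvd_of_free
    intro a y hay
    by_contra ha1
    -- B is a power of a
    obtain ⟨j, hj⟩ : ∃ j : ℕ, A ^ j = a.1 := mem_powers_iff_mem_zpowers.2 a.2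
    have hnd : ¬ p ^ e ∣ j := by
      intro h
      apply ha1
      apply Subtype.ext
      rw [← hj]
      change A ^ j = 1
      rw [← orderOf_dvd_iff_pow_eq_one, hA]
      exact h
    -- some power of `A ^ j` is `B`
    have hBmem : B ∈ Subgroup.zpowers (A ^ j) := by
      obtain ⟨c, r, hr, hc⟩ := Nat.exists_eq_pow_mul_and_not_dvd
        (show j ≠ 0 by rintro rfl; exact hnd (dvd_zero _)) p hp.ne_one
      have hce : c ≤ e - 1 := by
        by_contra h
        push Not at h
        apply hnd
        rw [hc]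
        exact (pow_dvd_pow p (by omega)).mul_right r
      -- solve r * s ≡ 1 mod p ^ e
      have hcop : Nat.Coprime r (p ^ e) :=
        ((Nat.Prime.coprime_iff_not_dvd hp).2 hr).symm.pow_right e
      obtain ⟨s, hs⟩ := exists_pow_eq_self_of_coprime (x := A) (n := r) (by rw [hA]; exact hcop)
      refine ⟨((s * p ^ (e - 1 - c) : ℕ) : ℤ), ?_⟩
      change (A ^ j) ^ ((s * p ^ (e - 1 - c) : ℕ) : ℤ) = A ^ p ^ (e - 1)
      rw [zpow_natCast, hc, ← pow_mul]
      have e1 : p ^ c * r * (s * p ^ (e - 1 - c)) = (r * s) * (p ^ c * p ^ (e - 1 - c)) := by ring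
      rw [e1, ← pow_add, Nat.add_sub_cancel' hce, pow_mul, pow_mul, hs]
    obtain ⟨i, hi⟩ : ∃ i : ℕ, (A ^ j) ^ i = B := mem_powers_iff_mem_zpowers.2 hBmem
    apply y.2.2
    apply hfree y.1 y.2.1
    have h2 : ((A ^ j : (Module.End F V)ˣ) : Module.End F V) y.1 = y.1 := by
      rw [hj]
      exact congrArg Subtype.val hay
    have h3 : ∀ i : ℕ, (((A ^ j) ^ i : (Module.End F V)ˣ) : Module.End F V) y.1 = y.1 := by
      intro i
      induction i with
      | zero => rfl
      | succ i ih =>
        rw [pow_succ]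
        change (((A ^ j) ^ i : (Module.End F V)ˣ) : Module.End F V)
          (((A ^ j : (Module.End F V)ˣ) : Module.End F V) y.1) = y.1
        rw [h2, ih]
    rw [← hi]
    exact h3 i
  have h2 : Nat.card Y = 2 ^ (Module.finrank F W) - 1 := by
    have h3 : Nat.card W = 2 ^ Module.finrank F W := by
      rw [Module.natCard_eq_pow_finrank (K := F), Nat.card_eq_fintype_card, hF]
    rw [← h3]
    have h4 : Nat.card Y = Nat.card {w : W // w ≠ 0} := by
      apply Nat.card_congr
      exact
        { toFun := fun y => ⟨⟨y.1, y.2.1⟩, fun h => y.2.2 (congrArg Subtype.val h)⟩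
          invFun := fun y => ⟨y.1.1, y.1.2, fun h => y.2 (Subtype.ext h)⟩
          left_inv := fun y => rfl
          right_inv := fun y => rfl }
    rw [h4]
    haveI : Fintype W := Fintype.ofFinite W
    classical
    rw [Nat.card_eq_fintype_card, Nat.card_eq_fintype_card, Fintype.card_subtype_compl,
      Fintype.card_subtype_eq]
  refine ⟨Module.finrank F W, ?_, ?_, ?_⟩
  · rw [Nat.one_le_iff_ne_zero]
    intro h
    apply hW0
    exact Submodule.finrank_eq_zero.1 h
  · have := Submodule.finrank_le W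
    rwa [Module.finrank_fin_fun] at this
  · rw [← h2, ← hA, ← Nat.card_zpowers]
    exact h1

end

end CfsgL.Spec2
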