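import Cfsg.Agent.L.Misc.SylSym
import Cfsg.Prelude.Def_HallClasses
/-!
Sylow 2-subgroups of alternating groups of degree at least 6 are self-normalising;
subgroups of odd index are pronormal.
-/
set_option autoImplicit false
set_option maxHeartbeats 400000
namespace CfsgL.SylSym
open Equiv

theorem self_norm {Ω : Type} [Fintype Ω] [DecidableEq Ω] (T : Sylow 2 (Perm Ω)) :
    Subgroup.normalizer ((T : Subgroup (Perm Ω)) : Set (Perm Ω)) ≤ (T : Subgroup (Perm Ω)) :=
  normalizer_eq_aux _ Ω rfl T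

/-- conjugates of Sylow subgroups -/
theorem mem_conj_sylow {G : Type*} [Group G] {p : ℕ} (g : G) (P : Sylow p G) (x : G) :
    x ∈ ((g • P : Sylow p G) : Subgroup G) ↔ g⁻¹ * x * g ∈ (P : Subgroup G) := by
  rw [Sylow.coe_subgroup_smul, Subgroup.mem_pointwise_smul_iff_inv_smul_mem, ← map_inv]
  rw [MulAut.smul_def, MulAut.conj_apply, inv_inv]

section
variable {Ω : Type} [Fintype Ω] [DecidableEq Ω]

/-- two Sylow subgroups with the same even part coincide -/
theorem same_of_even (hn : 6 ≤ Fintype.card Ω) (T T' : Sylow 2 (Perm Ω))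
    (h : (T : Subgroup (Perm Ω)) ⊓ alternatingGroup Ω = (T' : Subgroup (Perm Ω)) ⊓ alternatingGroup Ω) :
    T = T' := by
  have hS : ∀ x ∈ alternatingGroup Ω, x ∈ (T : Subgroup (Perm Ω)) ↔ x ∈ (T' : Subgroup (Perm Ω)) := by
    intro x hx
    constructor
    · intro h1
      have : x ∈ (T : Subgroup (Perm Ω)) ⊓ alternatingGroup Ω := ⟨h1, hx⟩
      rw [h] at this
      exact this.1
    · intro h1
      have : x ∈ (T' : Subgroup (Perm Ω)) ⊓ alternatingGroup Ω := ⟨h1, hx⟩
      rw [← h] at this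
      exact this.1
  -- a common transposition
  suffices hc : ∃ t, t ∈ MM (T : Subgroup (Perm Ω)) ∧ t ∈ MM (T' : Subgroup (Perm Ω)) by
    obtain ⟨t, ht, ht'⟩ := hc
    rw [mem_MM] at ht ht'
    apply Sylow.ext
    ext x
    by_cases hx : x ∈ alternatingGroup Ω
    · exact hS x hx
    · have h1 : x * t ∈ alternatingGroup Ω := by
        rw [Perm.mem_alternatingGroup] at hx ⊢
        rw [map_mul, ht.2.sign_eq]
        rcases Int.units_eq_one_or (Perm.sign x) with h2 | h2
        · exact absurd h2 hx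
        · rw [h2]; decide
      have h2 := hS _ h1
      constructor
      · intro h3
        have h4 := h2.1 ((T : Subgroup (Perm Ω)).mul_mem h3 ht.1)
        have h5 := (T' : Subgroup (Perm Ω)).mul_mem h4 ((T' : Subgroup (Perm Ω)).inv_mem ht'.1)
        rwa [mul_inv_cancel_right] at h5
      · intro h3
        have h4 := h2.2 ((T' : Subgroup (Perm Ω)).mul_mem h3 ht'.1)
        have h5 := (T : Subgroup (Perm Ω)).mul_mem h4 ((T : Subgroup (Perm Ω)).inv_mem ht.1)
        rwa [mul_inv_cancel_right] at h5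
  by_contra hno
  push Not at hno
  have hcM' : 3 ≤ (MM (T' : Subgroup (Perm Ω))).card := by rw [card_MM]; omega
  obtain ⟨t, ht⟩ : ∃ t, t ∈ MM (T' : Subgroup (Perm Ω)) := by
    apply Finset.card_pos.1; omega
  obtain ⟨i, j, hij, htij⟩ := (mem_MM.1 ht).2
  -- one of the two points is moved by a transposition of T
  obtain ⟨i, htm, u, hu, hui⟩ : ∃ i, t i ≠ i ∧ ∃ u ∈ MM (T : Subgroup (Perm Ω)), u i ≠ i := by
    by_contra hcon
    push Not at hcon
    apply hij
    apply compl_le_one T
    · intro u hu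
      exact hcon i (by rw [htij, swap_apply_left]; exact Ne.symm hij) u hu
    · intro u hu
      exact hcon j (by rw [htij, swap_apply_right]; exact hij) u hu
  have hsw : ∀ s ∈ MM (T' : Subgroup (Perm Ω)), s ≠ t → s (u i) ≠ u i := by
    intro s hs hst hsu
    have hg : t * s ∈ (T : Subgroup (Perm Ω)) := by
      rw [hS]
      · exact (T' : Subgroup (Perm Ω)).mul_mem (mem_MM.1 ht).1 (mem_MM.1 hs).1
      · rw [Perm.mem_alternatingGroup, map_mul, (mem_MM.1 ht).2.sign_eq, (mem_MM.1 hs).2.sign_eq]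
        decide
    have hsi : s i = i := by
      by_contra h1
      exact hst (same_of_moved T'.isPGroup' hs ht h1 htm)
    -- conjugate of u
    have hv : (t * s) * u * (t * s)⁻¹ ∈ MM (T : Subgroup (Perm Ω)) := by
      apply conj_mem_MM _ hu
      exact Subgroup.le_normalizer hg
    have hne : u i ≠ t i := by
      intro h1
      apply hno u hu
      have e1 := supp_swap (mem_MM.1 hu).2 hui
      have e2 := supp_swap (mem_MM.1 ht).2 htm
      rw [e1, h1, ← e2]
      exact ht
    have htu : t (u i) = u i := by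
      rw [supp_swap (mem_MM.1 ht).2 htm]
      exact swap_apply_of_ne_of_ne hui hne
    have e1 : ((t * s) * u * (t * s)⁻¹) (t i) = u i := by
      have h1 : (t * s)⁻¹ (t i) = i := by
        rw [Perm.inv_eq_iff_eq, Perm.mul_apply, hsi]
      rw [Perm.mul_apply, h1, Perm.mul_apply, Perm.mul_apply, hsu, htu]
    have h2 : ((t * s) * u * (t * s)⁻¹) (t i) ≠ t i := by rw [e1]; exact hne
    have h3 := supp_swap (mem_MM.1 hv).2 h2
    rw [e1] at h3
    have h4 : ((t * s) * u * (t * s)⁻¹) (u i) ≠ u i := by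
      rw [h3, swap_apply_right]
      exact Ne.symm hne
    have h5 : u (u i) ≠ u i := fun h => hui (u.injective h)
    have h6 := same_of_moved T.isPGroup' hv hu h4 h5
    rw [h6] at e1
    exact htm (u.injective e1)
  obtain ⟨s, hs, s', hs', hss⟩ : ∃ s ∈ (MM (T' : Subgroup (Perm Ω))).erase t,
      ∃ s' ∈ (MM (T' : Subgroup (Perm Ω))).erase t, s ≠ s' := by
    rw [← Finset.one_lt_card]
    rw [Finset.card_erase_of_mem ht]
    omega
  rw [Finset.mem_erase] at hs hs'
  exact hss (same_of_moved T'.isPGroup' hs.2 hs'.2 (hsw s hs.2 hs.1) (hsw s' hs'.2 hs'.1))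

theorem alt_self_norm (hn : 6 ≤ Fintype.card Ω) (S : Sylow 2 (alternatingGroup Ω)) :
    Subgroup.normalizer ((S : Subgroup (alternatingGroup Ω)) : Set (alternatingGroup Ω)) ≤
      (S : Subgroup (alternatingGroup Ω)) := by
  intro x hx
  have hp : IsPGroup 2 ((S : Subgroup (alternatingGroup Ω)).map (alternatingGroup Ω).subtype) :=
    S.isPGroup'.map _
  obtain ⟨T, hT⟩ := hp.exists_le_sylow
  have hST : ∀ y : alternatingGroup Ω, y ∈ (S : Subgroup (alternatingGroup Ω)) ↔
      y.1 ∈ (T : Subgroup (Perm Ω)) := by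
    have h1 : IsPGroup 2 ((T : Subgroup (Perm Ω)).comap (alternatingGroup Ω).subtype) :=
      T.isPGroup'.comap_of_injective _ (alternatingGroup Ω).subtype_injective
    have h2 : (S : Subgroup (alternatingGroup Ω)) ≤
        (T : Subgroup (Perm Ω)).comap (alternatingGroup Ω).subtype := by
      intro y hy
      exact hT ⟨y, hy, rfl⟩
    have h3 := S.is_maximal' h1 h2
    intro y
    constructor
    · intro hy; exact h2 hy
    · intro hy
      have h4 : y ∈ (T : Subgroup (Perm Ω)).comap (alternatingGroup Ω).subtype := hy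
      rw [h3] at h4
      exact h4
  rw [hST]
  apply self_norm T
  have h1 : x.1 • T = T := by
    symm
    apply same_of_even hn
    ext y
    rw [Subgroup.mem_inf, Subgroup.mem_inf]
    constructor
    · rintro ⟨h1, h2⟩
      refine ⟨?_, h2⟩
      rw [mem_conj_sylow]
      have h3 : x⁻¹ * ⟨y, h2⟩ * x ∈ (S : Subgroup (alternatingGroup Ω)) := by
        have h4 := (Subgroup.mem_normalizer_iff.1 (Subgroup.inv_mem _ hx) ⟨y, h2⟩).1 ((hST _).2 h1)
        rwa [inv_inv] at h4
      exact (hST _).1 h3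
    · rintro ⟨h1, h2⟩
      refine ⟨?_, h2⟩
      rw [mem_conj_sylow] at h1
      have h3 : x⁻¹ * ⟨y, h2⟩ * x ∈ (S : Subgroup (alternatingGroup Ω)) := (hST _).2 h1
      have h4 := (Subgroup.mem_normalizer_iff.1 (Subgroup.inv_mem _ hx) ⟨y, h2⟩).2 (by
        rwa [inv_inv])
      exact (hST _).1 h4
  exact Sylow.smul_eq_iff_mem_normalizer.1 h1

end

/-- the pronormality criterion -/
theorem pronormal_of_sylow {G : Type*} [Group G] [Finite G] (H : Subgroup G) (S : Sylow 2 G)
    (hSH : (S : Subgroup G) ≤ H)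
    (hN : ∀ n ∈ Subgroup.normalizer ((S : Subgroup G) : Set G), H.map (MulAut.conj n).toMonoidHom = H) :
    Cfsg.IsPronormal H := by
  haveI : Fact (Nat.Prime 2) := ⟨Nat.prime_two⟩
  intro g
  let K := H ⊔ H.map (MulAut.conj g).toMonoidHom
  have h1 : (S : Subgroup G) ≤ K := hSH.trans le_sup_left
  have h2 : ((g • S : Sylow 2 G) : Subgroup G) ≤ K := by
    refine le_trans ?_ (le_sup_right : _ ≤ K)
    intro y hy
    rw [mem_conj_sylow] at hy
    refine ⟨g⁻¹ * y * g, hSH hy, ?_⟩
    change g * (g⁻¹ * y * g) * g⁻¹ = y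
    group
  obtain ⟨k, hk⟩ := MulAction.exists_smul_eq K ((g • S).subtype h2) (S.subtype h1)
  have h3 : (k.1 * g) • S = S := by
    apply Sylow.ext
    ext y
    rw [mem_conj_sylow]
    constructor
    · intro hy
      have h5 : k.1⁻¹ * y * k.1 ∈ ((g • S : Sylow 2 G) : Subgroup G) := by
        rw [mem_conj_sylow]
        have e : g⁻¹ * (k.1⁻¹ * y * k.1) * g = (k.1 * g)⁻¹ * y * (k.1 * g) := by group
        rw [e]; exact hy
      have h6 : y ∈ K := by
        have := K.mul_mem (K.mul_mem k.2 (h2 h5)) (K.inv_mem k.2)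
        have e : k.1 * (k.1⁻¹ * y * k.1) * k.1⁻¹ = y := by group
        rwa [e] at this
      have h7 : (⟨y, h6⟩ : K) ∈ ((k • ((g • S).subtype h2) : Sylow 2 K) : Subgroup K) := by
        rw [mem_conj_sylow]
        exact h5
      rw [hk] at h7
      exact h7
    · intro hy
      have h6 : y ∈ K := h1 hy
      have h7 : (⟨y, h6⟩ : K) ∈ ((S.subtype h1 : Sylow 2 K) : Subgroup K) := hy
      rw [← hk, mem_conj_sylow] at h7
      have h8 : k.1⁻¹ * y * k.1 ∈ ((g • S : Sylow 2 G) : Subgroup G) := h7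
      rw [mem_conj_sylow] at h8
      have e : g⁻¹ * (k.1⁻¹ * y * k.1) * g = (k.1 * g)⁻¹ * y * (k.1 * g) := by group
      rwa [e] at h8
  have h4 := hN _ (Sylow.smul_eq_iff_mem_normalizer.1 h3)
  refine ⟨k.1⁻¹, K.inv_mem k.2, ?_⟩
  have h5 : MulAut.conj g = MulAut.conj k.1⁻¹ * MulAut.conj (k.1 * g) := by
    rw [← map_mul, inv_mul_cancel_left]
  rw [h5]
  have h6 : H.map (MulAut.conj k.1⁻¹ * MulAut.conj (k.1 * g)).toMonoidHom =
      (H.map (MulAut.conj (k.1 * g)).toMonoidHom).map (MulAut.conj k.1⁻¹).toMonoidHom := by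
    rw [Subgroup.map_map]; rfl
  rw [h6, h4]

theorem conj_map_self {G : Type*} [Group G] {H : Subgroup G} {n : G} (hn : n ∈ H) :
    H.map (MulAut.conj n).toMonoidHom = H := by
  ext y
  constructor
  · rintro ⟨z, hz, rfl⟩
    exact H.mul_mem (H.mul_mem hn hz) (H.inv_mem hn)
  · intro hy
    refine ⟨n⁻¹ * y * n, H.mul_mem (H.mul_mem (H.inv_mem hn) hy) hn, ?_⟩
    change n * (n⁻¹ * y * n) * n⁻¹ = y
    group

end CfsgL.SylSym
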