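import Cfsg.Agent.L.Misc.SylAlt
/-!
The alternating group of degree five.
-/
set_option autoImplicit false
set_option maxHeartbeats 400000
namespace CfsgL.SylSym
open Equiv

/-- the Klein four-group -/
def V4l : List (Perm (Fin 5)) := [1, swap 0 1 * swap 2 3, swap 0 2 * swap 1 3, swap 0 3 * swap 1 2]

theorem dec1 : ∀ h : Perm (Fin 5), Perm.sign h = 1 → h ∉ V4l → h 4 = 4 ∨ ∃ s ∈ V4l,
    ((h * s * h) 4 = 4 ∧ h * s * h ∉ V4l) ∨ ((h * s * h⁻¹) 4 = 4 ∧ h * s * h⁻¹ ∉ V4l) ∨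
      ∃ s' ∈ V4l, (h * s * h * s' * h) 4 = 4 ∧ h * s * h * s' * h ∉ V4l := by
  decide +kernel

theorem dec2 : ∀ x n : Perm (Fin 5), x 4 = 4 → n 4 = 4 → Perm.sign x = 1 → Perm.sign n = 1 →
    x ∉ V4l → ∃ s ∈ V4l, n = s ∨ n = s * x ∨ n = s * x * x := by
  decide +kernel

theorem dec3 : ∀ n : Perm (Fin 5), (∀ s ∈ V4l, n * s * n⁻¹ ∈ V4l) → n 4 = 4 := by decide +kernel

theorem V4_even : ∀ s ∈ V4l, Perm.sign s = 1 := by decide +kernel

/-- the base Sylow subgroup -/
def V4 : Subgroup (alternatingGroup (Fin 5)) where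
  carrier := {x | x.1 ∈ V4l}
  one_mem' := by
    change (1 : Perm (Fin 5)) ∈ V4l
    decide +kernel
  mul_mem' := by
    intro a b ha hb
    have key : ∀ a ∈ V4l, ∀ b ∈ V4l, a * b ∈ V4l := by decide +kernel
    exact key _ ha _ hb
  inv_mem' := by
    intro a ha
    have key : ∀ a ∈ V4l, a⁻¹ ∈ V4l := by decide +kernel
    exact key _ ha

theorem mem_V4 {x : alternatingGroup (Fin 5)} : x ∈ V4 ↔ x.1 ∈ V4l := Iff.rfl

theorem card_V4 : Nat.card V4 = 4 := by
  have h1 : Nat.card V4 = (V4l.toFinset).card := by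
    rw [← Fintype.card_coe, ← Nat.card_eq_fintype_card]
    apply Nat.card_congr
    exact
      { toFun := fun x => ⟨x.1.1, List.mem_toFinset.2 x.2⟩
        invFun := fun x => ⟨⟨x.1, V4_even _ (List.mem_toFinset.1 x.2)⟩, List.mem_toFinset.1 x.2⟩
        left_inv := fun x => rfl
        right_inv := fun x => rfl }
  rw [h1]; decide +kernel

theorem card_A5 : Nat.card (alternatingGroup (Fin 5)) = 60 := by
  rw [nat_card_alternatingGroup, Nat.card_eq_fintype_card, Fintype.card_fin]; decide +kernel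

noncomputable def S0 : Sylow 2 (alternatingGroup (Fin 5)) := Sylow.ofCard V4 (by
  rw [card_V4, card_A5]
  have : (60 : ℕ).factorization 2 = 2 := by
    rw [show 60 = 2 ^ 2 * 15 by norm_num, Nat.factorization_mul (by norm_num) (by norm_num),
      Finsupp.add_apply, Nat.prime_two.factorization_pow,
      Nat.factorization_eq_zero_of_not_dvd (show ¬ 2 ∣ 15 by norm_num)]
    simp
  rw [this]; norm_num)

theorem mem_S0 {x : alternatingGroup (Fin 5)} : x ∈ (S0 : Subgroup (alternatingGroup (Fin 5))) ↔ x.1 ∈ V4l := Iff.rfl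

/-- overgroups of the base Sylow subgroup -/
theorem over_S0 (H : Subgroup (alternatingGroup (Fin 5)))
    (hH : (S0 : Subgroup (alternatingGroup (Fin 5))) ≤ H) :
    H ≤ (S0 : Subgroup (alternatingGroup (Fin 5))) ∨
      Subgroup.normalizer ((S0 : Subgroup (alternatingGroup (Fin 5))) : Set _) ≤ H := by
  by_cases hc : H ≤ (S0 : Subgroup (alternatingGroup (Fin 5)))
  · exact Or.inl hc
  right
  obtain ⟨h, hh, hhS⟩ := Set.not_subset.1 hc
  have hhS' : h.1 ∉ V4l := hhS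
  have hs : ∀ s (hs : s ∈ V4l), (⟨s, V4_even s hs⟩ : alternatingGroup (Fin 5)) ∈ H := fun s hs =>
    hH (mem_S0.2 hs)
  -- an element of H of order three fixing the last point
  obtain ⟨x, hx, hx4, hxS⟩ : ∃ x ∈ H, x.1 4 = 4 ∧ x.1 ∉ V4l := by
    rcases dec1 h.1 h.2 hhS' with h1 | ⟨s, hs1, h1 | h1 | ⟨s', hs', h1⟩⟩
    · exact ⟨h, hh, h1, hhS'⟩
    · exact ⟨h * ⟨s, V4_even s hs1⟩ * h, H.mul_mem (H.mul_mem hh (hs s hs1)) hh, h1.1, h1.2⟩
    · exact ⟨h * ⟨s, V4_even s hs1⟩ * h⁻¹, H.mul_mem (H.mul_mem hh (hs s hs1)) (H.inv_mem hh),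
        h1.1, h1.2⟩
    · exact ⟨h * ⟨s, V4_even s hs1⟩ * h * ⟨s', V4_even s' hs'⟩ * h,
        H.mul_mem (H.mul_mem (H.mul_mem (H.mul_mem hh (hs s hs1)) hh) (hs s' hs')) hh, h1.1, h1.2⟩
  intro n hn
  have hn4 : n.1 4 = 4 := by
    apply dec3
    intro s hs1
    exact (Subgroup.mem_normalizer_iff.1 hn ⟨s, V4_even s hs1⟩).1 (mem_S0.2 hs1)
  obtain ⟨s, hs1, h1 | h1 | h1⟩ := dec2 x.1 n.1 hx4 hn4 x.2 n.2 hxS
  · have : n = ⟨s, V4_even s hs1⟩ := Subtype.ext h1
    rw [this]; exact hs s hs1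
  · have : n = ⟨s, V4_even s hs1⟩ * x := Subtype.ext h1
    rw [this]; exact H.mul_mem (hs s hs1) hx
  · have : n = ⟨s, V4_even s hs1⟩ * x * x := Subtype.ext h1
    rw [this]; exact H.mul_mem (H.mul_mem (hs s hs1) hx) hx

theorem sylow_le_of_odd {G : Type*} [Group G] [Finite G] (H : Subgroup G) (hH : Odd H.index) :
    ∃ S : Sylow 2 G, (S : Subgroup G) ≤ H := by
  haveI : Fact (Nat.Prime 2) := ⟨Nat.prime_two⟩
  exact CfsgH3.exists_sylow_le_of_not_dvd H hH.not_two_dvd_nat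

theorem alt_pronormal (n : ℕ) (hn : 5 ≤ n)
    (H : Subgroup (alternatingGroup (Fin n))) (hH : Odd H.index) : Cfsg.IsPronormal H := by
  haveI : Fact (Nat.Prime 2) := ⟨Nat.prime_two⟩
  obtain ⟨S, hS⟩ := sylow_le_of_odd H hH
  apply pronormal_of_sylow H S hS
  intro x hx
  by_cases h6 : 6 ≤ n
  · apply conj_map_self
    exact hS (alt_self_norm (by rw [Fintype.card_fin]; exact h6) S hx)
  obtain rfl : n = 5 := by omega
  obtain ⟨g, hg⟩ := MulAction.exists_smul_eq (alternatingGroup (Fin 5)) S0 S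
  let H1 : Subgroup (alternatingGroup (Fin 5)) := H.comap (MulAut.conj g).toMonoidHom
  have hSg : ∀ y, y ∈ (S : Subgroup (alternatingGroup (Fin 5))) ↔
      g⁻¹ * y * g ∈ (S0 : Subgroup (alternatingGroup (Fin 5))) := by
    intro y
    rw [← hg, mem_conj_sylow]
  have h1 : (S0 : Subgroup (alternatingGroup (Fin 5))) ≤ H1 := by
    intro y hy
    change g * y * g⁻¹ ∈ H
    apply hS
    rw [hSg]
    have e : g⁻¹ * (g * y * g⁻¹) * g = y := by group
    rw [e]; exact hy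
  rcases over_S0 H1 h1 with h2 | h2
  · have h3 : H = (S : Subgroup (alternatingGroup (Fin 5))) := by
      apply le_antisymm _ hS
      intro y hy
      rw [hSg]
      apply h2
      change g * (g⁻¹ * y * g) * g⁻¹ ∈ H
      have e : g * (g⁻¹ * y * g) * g⁻¹ = y := by group
      rw [e]; exact hy
    rw [h3]
    ext y
    constructor
    · rintro ⟨z, hz, rfl⟩
      exact (Subgroup.mem_normalizer_iff.1 hx z).1 hz
    · intro hy
      refine ⟨x⁻¹ * y * x, ?_, ?_⟩
      · have := (Subgroup.mem_normalizer_iff.1 (Subgroup.inv_mem _ hx) y).1 hy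
        rwa [inv_inv] at this
      · change x * (x⁻¹ * y * x) * x⁻¹ = y
        group
  · apply conj_map_self
    have h3 : g⁻¹ * x * g ∈ Subgroup.normalizer
        ((S0 : Subgroup (alternatingGroup (Fin 5))) : Set (alternatingGroup (Fin 5))) := by
      rw [Subgroup.mem_normalizer_iff]
      intro y
      have e1 : y ∈ (S0 : Subgroup (alternatingGroup (Fin 5))) ↔
          g * y * g⁻¹ ∈ (S : Subgroup (alternatingGroup (Fin 5))) := by
        rw [hSg]
        have e : g⁻¹ * (g * y * g⁻¹) * g = y := by group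
        rw [e]
      have e2 := Subgroup.mem_normalizer_iff.1 hx (g * y * g⁻¹)
      have e3 := hSg (x * (g * y * g⁻¹) * x⁻¹)
      have e4 : g⁻¹ * (x * (g * y * g⁻¹) * x⁻¹) * g = g⁻¹ * x * g * y * (g⁻¹ * x * g)⁻¹ := by group
      rw [e4] at e3
      exact (e1.trans e2).trans e3
    have h4 : g * (g⁻¹ * x * g) * g⁻¹ ∈ H := h2 h3
    have e : g * (g⁻¹ * x * g) * g⁻¹ = x := by group
    rwa [e] at h4

end CfsgL.SylSym
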