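import Cfsg.Agent.L.Misc.QuatSol

set_option autoImplicit false
open Cfsg Subgroup

namespace CfsgL.SylInt

universe u v

variable {G : Type u} [Group G]

theorem map_sylow_top {M : Type u} [Group M] [Finite M] {N : Type v} [Group N] {p : ℕ} [Fact p.Prime] (f : M →* N) (hf : Function.Surjective f)
    (hN : IsPGroup p N) (P : Sylow p M) : (P : Subgroup M).map f = ⊤ := by
  have h1 := (P.mapSurjective hf).is_maximal' (Q := ⊤) (hN.to_subgroup ⊤) le_top
  have h2 : ((P.mapSurjective hf : Sylow p N) : Subgroup N) = (P : Subgroup M).map f := rfl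
  rw [← h2]
  exact h1.symm

theorem lift [Finite G] {p : ℕ} [Fact p.Prime] (H : Subgroup G) [H.Normal] (D : Subgroup G) (hD : IsPGroup p ↥D) (S : Sylow p (G ⧸ H))
    (h : D.map (QuotientGroup.mk' H) ≤ S) : ∃ S' : Sylow p G, D ≤ S' ∧ (S' : Subgroup G).map (QuotientGroup.mk' H) = S := by
  set π := QuotientGroup.mk' H with hπ
  have hDA : D ≤ (S : Subgroup (G ⧸ H)).comap π := Subgroup.map_le_iff_le_comap.1 h
  obtain ⟨S₁, hS₁⟩ := (hD.comap_of_injective ((S : Subgroup (G ⧸ H)).comap π).subtype (Subgroup.subtype_injective _)).exists_le_sylow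
  obtain ⟨S', hS'⟩ := (S₁.isPGroup'.map ((S : Subgroup (G ⧸ H)).comap π).subtype).exists_le_sylow
  refine ⟨S', ?_, ?_⟩
  · intro x hx
    apply hS'
    exact ⟨⟨x, hDA hx⟩, hS₁ hx, rfl⟩
  · apply S.is_maximal' (S'.isPGroup'.map π)
    intro y hy
    have h1 := map_sylow_top (π.subgroupComap (S : Subgroup (G ⧸ H))) (MonoidHom.subgroupComap_surjective_of_surjective π _ (QuotientGroup.mk'_surjective H))
      S.isPGroup' S₁
    have h2 : (⟨y, hy⟩ : ↥(S : Subgroup (G ⧸ H))) ∈ (S₁ : Subgroup _).map (π.subgroupComap (S : Subgroup (G ⧸ H))) := by rw [h1]; trivial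
    obtain ⟨a, ha, hay⟩ := h2
    exact ⟨a, hS' ⟨a, ha, rfl⟩, congrArg Subtype.val hay⟩

theorem cyc_quot [Finite G] (hC : ∀ S T : Sylow 2 G, S ≠ T → IsCyclic ↥((S : Subgroup G) ⊓ (T : Subgroup G))) (H : Subgroup G) [H.Normal] :
    ∀ S T : Sylow 2 (G ⧸ H), S ≠ T → IsCyclic ↥((S : Subgroup (G ⧸ H)) ⊓ (T : Subgroup (G ⧸ H))) := by
  haveI : Fact (Nat.Prime 2) := ⟨Nat.prime_two⟩
  intro S T hST
  set π := QuotientGroup.mk' H with hπ
  set Db := (S : Subgroup (G ⧸ H)) ⊓ (T : Subgroup (G ⧸ H)) with hDb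
  have hDbp : IsPGroup 2 ↥Db := S.isPGroup'.to_le inf_le_left
  obtain ⟨P⟩ : Nonempty (Sylow 2 ↥(Db.comap π)) := inferInstance
  set D := (P : Subgroup ↥(Db.comap π)).map (Db.comap π).subtype with hD
  have hDp : IsPGroup 2 ↥D := P.isPGroup'.map _
  have h1 := map_sylow_top (π.subgroupComap Db) (MonoidHom.subgroupComap_surjective_of_surjective π _ (QuotientGroup.mk'_surjective H)) hDbp P
  have hDm : D.map π = Db := by
    apply le_antisymm
    · rintro _ ⟨_, ⟨a, ha, rfl⟩, rfl⟩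
      exact a.2
    · intro y hy
      have h2 : (⟨y, hy⟩ : ↥Db) ∈ (P : Subgroup _).map (π.subgroupComap Db) := by rw [h1]; trivial
      obtain ⟨a, ha, hay⟩ := h2
      exact ⟨a, ⟨a, ha, rfl⟩, congrArg Subtype.val hay⟩
  obtain ⟨S', hDS, hS'⟩ := lift H D hDp S (by rw [← hπ, hDm]; exact inf_le_left)
  obtain ⟨T', hDT, hT'⟩ := lift H D hDp T (by rw [← hπ, hDm]; exact inf_le_right)
  have hne : S' ≠ T' := by
    rintro rfl
    apply hST
    ext1
    rw [← hS', ← hT']
  have h3 := hC S' T' hne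
  have h4 : D ≤ (S' : Subgroup G) ⊓ (T' : Subgroup G) := le_inf hDS hDT
  have h5 : IsCyclic ↥D := by
    have h6 : IsCyclic ↥(D.subgroupOf ((S' : Subgroup G) ⊓ (T' : Subgroup G))) := inferInstance
    exact isCyclic_of_surjective (Subgroup.subgroupOfEquivOfLe h4) (MulEquiv.surjective _)
  rw [← hDm]
  exact isCyclic_of_surjective (π.subgroupMap D) (MonoidHom.subgroupMap_surjective _ _)

theorem solv_cyc [Finite G] (hsol : Group.IsSolvable G) (hO : pPrimeCore 2 G = ⊥) (hC : IsCyclic ↥(pCore 2 G)) : IsPGroup 2 G := by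
  classical
  haveI : Fact (Nat.Prime 2) := ⟨Nat.prime_two⟩
  have hch : Subgroup.centralizer (pCore 2 G : Set G) ≤ pCore 2 G :=
    CfsgH1.psolv_centralizer_pCore_le (CfsgH1.isPSolvable_of_isSolvable (Nat.card G) G rfl hsol) hO
  have hQp : IsPGroup 2 ↥(pCore 2 G) := CfsgH2.isPGroup_pCore 2
  have hodd : ∀ x : G, Odd (orderOf x) → x = 1 := by
    intro x hx
    have h1 := CfsgH4.odd_centralizes_cyclic hC hQp (g := x) (by
      rw [Subgroup.normalizer_eq_top_iff.2 (inferInstance : (pCore 2 G).Normal)]; trivial) hx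
    have h2 : x ∈ pCore 2 G := hch (by
      rw [Subgroup.mem_centralizer_iff]
      intro q hq
      exact (h1 q hq).symm)
    obtain ⟨k, hk⟩ := hQp ⟨x, h2⟩
    have hk' : x ^ 2 ^ k = 1 := congrArg Subtype.val hk
    exact orderOf_eq_one_iff.1 (Nat.eq_one_of_dvd_coprimes (Nat.Coprime.pow_right k (Nat.coprime_two_right.2 hx)) dvd_rfl (orderOf_dvd_of_pow_eq_one hk'))
  have h1 : ∃ k, Nat.card G = 2 ^ k := by
    refine ⟨_, Nat.eq_prime_pow_of_unique_prime_dvd Nat.card_pos.ne' ?_⟩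
    intro q hq hqd
    by_contra hq2
    haveI := Fact.mk hq
    obtain ⟨x, hx⟩ := exists_prime_orderOf_dvd_card' q hqd
    have h2 := hodd x (by rw [hx]; exact hq.odd_of_ne_two hq2)
    rw [h2, orderOf_one] at hx
    exact hq.one_lt.ne hx
  obtain ⟨k, hk⟩ := h1
  exact IsPGroup.of_card hk

end CfsgL.SylInt
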