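import Mathlib
import Cfsg.Agent.H3.PCentral
/-!
Sylow 2-subgroups of symmetric groups are self-normalising.
-/
set_option autoImplicit false
set_option maxHeartbeats 400000
namespace CfsgL.SylSym
open Equiv

section
variable {Ω : Type*} [Fintype Ω] [DecidableEq Ω]

theorem swap_unique {T : Subgroup (Perm Ω)} (hT : IsPGroup 2 T) {a b c : Ω} (hab : a ≠ b)
    (hac : a ≠ c) (h1 : swap a b ∈ T) (h2 : swap a c ∈ T) : b = c := by
  by_contra hbc
  have h3 := (Perm.isThreeCycle_swap_mul_swap_same hab hac hbc).orderOf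
  obtain ⟨k, hk⟩ := hT ⟨_, T.mul_mem h1 h2⟩
  have h4 : (swap a b * swap a c) ^ 2 ^ k = 1 := congrArg Subtype.val hk
  have h5 := orderOf_dvd_of_pow_eq_one h4
  rw [h3] at h5
  have h6 := Nat.Prime.dvd_of_dvd_pow (by norm_num) h5
  norm_num at h6

open Classical in
/-- the transpositions of `T` -/
noncomputable def MM (T : Subgroup (Perm Ω)) : Finset (Perm Ω) :=
  Finset.univ.filter (fun t => t ∈ T ∧ t.IsSwap)

theorem mem_MM {T : Subgroup (Perm Ω)} {t : Perm Ω} : t ∈ MM T ↔ t ∈ T ∧ t.IsSwap := by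
  simp [MM]

theorem supp_swap {t : Perm Ω} (ht : t.IsSwap) {a : Ω} (ha : t a ≠ a) : t = swap a (t a) := by
  obtain ⟨x, y, hxy, rfl⟩ := ht
  by_cases h1 : a = x
  · rw [h1, swap_apply_left]
  · by_cases h2 : a = y
    · rw [h2, swap_apply_right, swap_comm]
    · exact absurd (swap_apply_of_ne_of_ne h1 h2) ha

theorem same_of_moved {T : Subgroup (Perm Ω)} (hT : IsPGroup 2 T) {t s : Perm Ω} (ht : t ∈ MM T)
    (hs : s ∈ MM T) {a : Ω} (h1 : t a ≠ a) (h2 : s a ≠ a) : t = s := by
  rw [mem_MM] at ht hs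
  have e1 := supp_swap ht.2 h1
  have e2 := supp_swap hs.2 h2
  have h3 : t a = s a := swap_unique hT (Ne.symm h1) (Ne.symm h2) (e1 ▸ ht.1) (e2 ▸ hs.1)
  rw [e1, e2, h3]

theorem card_union {T : Subgroup (Perm Ω)} (hT : IsPGroup 2 T) :
    ((MM T).biUnion Perm.support).card = 2 * (MM T).card := by
  rw [Finset.card_biUnion]
  · rw [Finset.sum_congr rfl (fun t ht => Perm.card_support_eq_two.2 (mem_MM.1 ht).2)]
    simp [mul_comm]
  · intro t ht s hs hne
    rw [Function.onFun, Finset.disjoint_left]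
    intro a ha hb
    rw [Perm.mem_support] at ha hb
    exact hne (same_of_moved hT ht hs ha hb)

/-- explicit disjoint transpositions generate a 2-group -/
theorem exists_many (m : ℕ) (h : 2 * m ≤ Fintype.card Ω) :
    ∃ E : Subgroup (Perm Ω), IsPGroup 2 E ∧ m ≤ (MM E).card := by
  have h1 : Fintype.card (Σ _ : Fin m, Bool) ≤ Fintype.card Ω := by
    rw [Fintype.card_sigma]
    simp only [Fintype.card_bool, Finset.sum_const, Finset.card_univ, Fintype.card_fin, smul_eq_mul]
    omega
  obtain ⟨ι⟩ := Function.Embedding.nonempty_of_card_le h1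
  let Ψ : ((_ : Fin m) → Perm Bool) →* Perm Ω :=
    (Perm.viaEmbeddingHom ι).comp (Perm.sigmaCongrRightHom (fun _ : Fin m => Bool))
  refine ⟨Ψ.range, ?_, ?_⟩
  · have h2 : IsPGroup 2 ((_ : Fin m) → Perm Bool) := by
      intro g
      refine ⟨1, ?_⟩
      funext i
      change (g i) ^ (2 ^ 1) = 1
      have : ∀ x : Perm Bool, x ^ (2 ^ 1) = 1 := by decide
      exact this _
    exact h2.of_surjective Ψ.rangeRestrict Ψ.rangeRestrict_surjective
  · let F : Fin m → Perm Ω := fun i => Ψ (Pi.mulSingle i (swap false true))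
    have hF : ∀ i, F i = swap (ι ⟨i, false⟩) (ι ⟨i, true⟩) := by
      intro i
      ext x : 1
      change (Perm.viaEmbeddingHom ι) (Perm.sigmaCongrRightHom (fun _ : Fin m => Bool)
        (Pi.mulSingle i (swap false true))) x = _
      rw [Perm.viaEmbeddingHom_apply]
      by_cases hx : ∃ y, ι y = x
      · obtain ⟨⟨j, b⟩, rfl⟩ := hx
        rw [Perm.viaEmbedding_apply]
        change ι ⟨j, (Pi.mulSingle i (swap false true) : (_ : Fin m) → Perm Bool) j b⟩ = _
        by_cases hij : j = i
        · subst hij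
          rw [Pi.mulSingle_eq_same]
          cases b
          · rw [swap_apply_left, swap_apply_left]
          · rw [swap_apply_right, swap_apply_right]
        · rw [Pi.mulSingle_eq_of_ne hij, Perm.one_apply, swap_apply_of_ne_of_ne]
          · intro h2
            have := ι.injective h2
            rw [Sigma.mk.injEq] at this
            exact hij this.1
          · intro h2
            have := ι.injective h2
            rw [Sigma.mk.injEq] at this
            exact hij this.1
      · rw [Perm.viaEmbedding_apply_of_notMem, swap_apply_of_ne_of_ne]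
        · intro h2; exact hx ⟨_, h2.symm⟩
        · intro h2; exact hx ⟨_, h2.symm⟩
        · rintro ⟨y, hy⟩; exact hx ⟨y, hy⟩
    have hne : ∀ i, ι ⟨i, false⟩ ≠ ι ⟨i, true⟩ := by
      intro i h2
      have := ι.injective h2
      rw [Sigma.mk.injEq] at this
      simp at this
    have hinj : Function.Injective F := by
      intro i j hij
      by_contra hne'
      have h2 : F i (ι ⟨i, false⟩) = ι ⟨i, true⟩ := by rw [hF, swap_apply_left]
      have h3 : F j (ι ⟨i, false⟩) = ι ⟨i, false⟩ := by
        rw [hF, swap_apply_of_ne_of_ne]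
        · intro h4
          have := ι.injective h4
          rw [Sigma.mk.injEq] at this
          exact hne' this.1
        · intro h4
          have := ι.injective h4
          rw [Sigma.mk.injEq] at this
          exact hne' this.1
      rw [hij, h3] at h2
      exact hne i h2
    have h2 : (Finset.univ.image F).card = m := by
      rw [Finset.card_image_of_injective _ hinj, Finset.card_univ, Fintype.card_fin]
    refine le_trans h2.ge ?_
    apply Finset.card_le_card
    intro t ht
    obtain ⟨i, -, rfl⟩ := Finset.mem_image.1 ht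
    rw [mem_MM]
    refine ⟨⟨_, rfl⟩, ?_⟩
    rw [hF]
    exact ⟨_, _, hne i, rfl⟩

theorem card_MM (T : Sylow 2 (Perm Ω)) : (MM (T : Subgroup (Perm Ω))).card = Fintype.card Ω / 2 := by
  apply le_antisymm
  · have h1 := card_union T.isPGroup'
    have h2 := Finset.card_le_univ ((MM (T : Subgroup (Perm Ω))).biUnion Perm.support)
    omega
  · obtain ⟨E, hE, hm⟩ := exists_many (Ω := Ω) (Fintype.card Ω / 2) (by omega)
    refine le_trans hm ?_
    obtain ⟨Q, hQ⟩ := hE.exists_le_sylow
    obtain ⟨g, hg⟩ := MulAction.exists_smul_eq (Perm Ω) Q T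
    rw [← Finset.card_image_of_injective (MM E) (MulAut.conj g).injective]
    apply Finset.card_le_card
    intro t ht
    obtain ⟨s, hs, rfl⟩ := Finset.mem_image.1 ht
    rw [mem_MM] at hs ⊢
    constructor
    · rw [← hg]
      change (MulAut.conj g) s ∈ ((g • Q : Sylow 2 (Perm Ω)) : Subgroup (Perm Ω))
      rw [Sylow.coe_subgroup_smul]
      exact Subgroup.smul_mem_pointwise_smul s (MulAut.conj g) _ (hQ hs.1)
    · obtain ⟨x, y, hxy, rfl⟩ := hs.2
      rw [MulAut.conj_apply]
      refine ⟨g x, g y, fun h => hxy (g.injective h), ?_⟩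
      rw [← swap_apply_apply]

theorem compl_le_one (T : Sylow 2 (Perm Ω)) {a b : Ω}
    (ha : ∀ t ∈ MM (T : Subgroup (Perm Ω)), t a = a) (hb : ∀ t ∈ MM (T : Subgroup (Perm Ω)), t b = b) :
    a = b := by
  by_contra hab
  have h1 := card_union T.isPGroup'
  rw [card_MM T] at h1
  have h2 : ((MM (T : Subgroup (Perm Ω))).biUnion Perm.support) ⊆ (Finset.univ.erase a).erase b := by
    intro x hx
    obtain ⟨t, ht, hxt⟩ := Finset.mem_biUnion.1 hx
    rw [Perm.mem_support] at hxt
    rw [Finset.mem_erase, Finset.mem_erase]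
    refine ⟨?_, ?_, Finset.mem_univ _⟩
    · rintro rfl; exact hxt (hb t ht)
    · rintro rfl; exact hxt (ha t ht)
  have h3 := Finset.card_le_card h2
  rw [h1, Finset.card_erase_of_mem, Finset.card_erase_of_mem (Finset.mem_univ _),
    Finset.card_univ] at h3
  · have h4 : 2 ≤ Fintype.card Ω := by
      have := Finset.card_le_univ ({a, b} : Finset Ω)
      rwa [Finset.card_pair hab] at this
    omega
  · rw [Finset.mem_erase]
    exact ⟨Ne.symm hab, Finset.mem_univ _⟩

theorem conj_mem_MM {T : Subgroup (Perm Ω)} {x : Perm Ω}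
    (hx : x ∈ Subgroup.normalizer (T : Set (Perm Ω))) {t : Perm Ω} (ht : t ∈ MM T) :
    x * t * x⁻¹ ∈ MM T := by
  rw [mem_MM] at ht ⊢
  refine ⟨(Subgroup.mem_normalizer_iff.1 hx t).1 ht.1, ?_⟩
  obtain ⟨a, b, hab, rfl⟩ := ht.2
  exact ⟨x a, x b, fun h => hab (x.injective h), by rw [← swap_apply_apply]⟩

/-- the action on the transpositions -/
noncomputable def act (T : Subgroup (Perm Ω)) :
    Subgroup.normalizer (T : Set (Perm Ω)) →* Perm {t // t ∈ MM T} :=
  MonoidHom.toHomPerm
    { toFun := fun x t => ⟨x.1 * t.1 * x.1⁻¹, conj_mem_MM x.2 t.2⟩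
      map_one' := by
        funext t
        apply Subtype.ext
        change (1 : Perm Ω) * t.1 * (1 : Perm Ω)⁻¹ = t.1
        simp
      map_mul' := fun x y => by
        funext t
        apply Subtype.ext
        change (x.1 * y.1) * t.1 * (x.1 * y.1)⁻¹ = x.1 * (y.1 * t.1 * y.1⁻¹) * x.1⁻¹
        group }

theorem act_apply (T : Subgroup (Perm Ω)) (x : Subgroup.normalizer (T : Set (Perm Ω)))
    (t : {t // t ∈ MM T}) : ((act T x) t).1 = x.1 * t.1 * x.1⁻¹ := rfl

/-- elements commuting with all transpositions -/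
theorem ker_point {T : Sylow 2 (Perm Ω)} {x : Perm Ω}
    (hx : ∀ t ∈ MM (T : Subgroup (Perm Ω)), x * t = t * x) (a : Ω) :
    x a = a ∨ ∃ t ∈ MM (T : Subgroup (Perm Ω)), t a ≠ a ∧ x a = t a := by
  have hcomm : ∀ t ∈ MM (T : Subgroup (Perm Ω)), ∀ z, x (t z) = t (x z) := fun t ht z =>
    congrArg (fun k => k z) (hx t ht)
  by_cases h : ∃ t ∈ MM (T : Subgroup (Perm Ω)), t a ≠ a
  · obtain ⟨t, ht, hta⟩ := h
    by_cases hxa : x a = a
    · exact Or.inl hxa
    · right
      refine ⟨t, ht, hta, ?_⟩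
      have h1 : t (x a) ≠ x a := by
        rw [← hcomm t ht]
        exact fun h2 => hta (x.injective h2)
      have h2 := supp_swap (mem_MM.1 ht).2 hta
      by_contra h3
      apply h1
      rw [h2]
      exact swap_apply_of_ne_of_ne hxa h3
  · left
    push Not at h
    apply compl_le_one T _ h
    intro t ht
    rw [← hcomm t ht, h t ht]

theorem ker_sq {T : Sylow 2 (Perm Ω)} {x : Perm Ω}
    (hx : ∀ t ∈ MM (T : Subgroup (Perm Ω)), x * t = t * x) : x ^ 2 = 1 := by
  ext a : 1
  change x (x a) = a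
  rcases ker_point hx a with h | ⟨t, ht, hta, h⟩
  · rw [h, h]
  · have h1 : x (t a) = t (x a) := congrArg (fun k => k a) (hx t ht)
    rw [h, h1, h]
    have h2 := supp_swap (mem_MM.1 ht).2 hta
    nth_rewrite 1 [h2]
    rw [swap_apply_right]

theorem mem_of_act_eq_one (T : Sylow 2 (Perm Ω))
    (x : Subgroup.normalizer ((T : Subgroup (Perm Ω)) : Set (Perm Ω))) (hx : act _ x = 1) :
    x.1 ∈ (T : Subgroup (Perm Ω)) := by
  have h1 : ∀ t ∈ MM (T : Subgroup (Perm Ω)), x.1 * t = t * x.1 := by
    intro t ht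
    have h2 := act_apply _ x ⟨t, ht⟩
    rw [hx] at h2
    change t = x.1 * t * x.1⁻¹ at h2
    nth_rewrite 2 [h2]
    group
  exact CfsgH3.mem_sylow_of_normalizer T (k := 1) (by rw [pow_one]; exact ker_sq h1) x.2

theorem card_ker_le (T : Sylow 2 (Perm Ω)) (K : Subgroup (Perm Ω))
    (hK : ∀ x ∈ K, ∀ t ∈ MM (T : Subgroup (Perm Ω)), x * t = t * x) :
    Nat.card K ≤ 2 ^ (Fintype.card Ω / 2) := by
  let β : K → ({t // t ∈ MM (T : Subgroup (Perm Ω))} → Prop) := fun x t =>
    ∃ a, t.1 a ≠ a ∧ x.1 a ≠ a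
  have hβ : Function.Injective β := by
    have key : ∀ x y : K, β x = β y → ∀ a, x.1 a ≠ a → y.1 a = x.1 a := by
      intro x y hxy a hxa
      rcases ker_point (hK x.1 x.2) a with h | ⟨t, ht, hta, h⟩
      · exact absurd h hxa
      have h1 : β x ⟨t, ht⟩ := ⟨a, hta, hxa⟩
      rw [hxy] at h1
      obtain ⟨b, hb, hyb⟩ := h1
      have hy : ∀ z, y.1 (t z) = t (y.1 z) := fun z => congrArg (fun k => k z) (hK y.1 y.2 t ht)
      have e1 := supp_swap (mem_MM.1 ht).2 hta
      have hya : y.1 a ≠ a := by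
        intro hya
        apply hyb
        by_cases hba : b = a
        · rw [hba, hya]
        · have h2 : b = t a := by
            by_contra h3
            apply hb
            change t b = b
            rw [e1]
            exact swap_apply_of_ne_of_ne hba h3
          rw [h2, hy, hya]
      rcases ker_point (hK y.1 y.2) a with h2 | ⟨s, hs, hsa, h2⟩
      · exact absurd h2 hya
      · rw [h, h2, same_of_moved T.isPGroup' ht hs hta hsa]
    intro x y hxy
    apply Subtype.ext
    ext a : 1
    by_cases h : x.1 a = a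
    · by_cases h' : y.1 a = a
      · rw [h, h']
      · exact key y x hxy.symm a h'
    · exact (key x y hxy a h).symm
  have h1 := Nat.card_le_card_of_injective β hβ
  have h2 : Nat.card {t // t ∈ MM (T : Subgroup (Perm Ω))} = Fintype.card Ω / 2 := by
    rw [Nat.card_eq_fintype_card, Fintype.card_coe, card_MM]
  rw [Nat.card_fun, Nat.card_eq_fintype_card (α := Prop), Fintype.card_prop, h2] at h1
  exact h1

end

theorem val_fact (n : ℕ) : padicValNat 2 n.factorial = padicValNat 2 (n / 2).factorial + n / 2 := by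
  haveI : Fact (Nat.Prime 2) := ⟨Nat.prime_two⟩
  have h1 : n = 2 * (n / 2) + n % 2 := by omega
  conv_lhs => rw [h1]
  rw [padicValNat_factorial_mul_add _ (Nat.mod_lt _ (by norm_num)), padicValNat_factorial_mul]

theorem normalizer_eq_aux (n : ℕ) : ∀ (Ω : Type) [Fintype Ω] [DecidableEq Ω],
    Fintype.card Ω = n → ∀ T : Sylow 2 (Perm Ω),
      Subgroup.normalizer ((T : Subgroup (Perm Ω)) : Set (Perm Ω)) ≤ (T : Subgroup (Perm Ω)) := by
  induction n using Nat.strong_induction_on with
  | _ n ih =>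
  intro Ω _ _ hn T x hx
  haveI : Fact (Nat.Prime 2) := ⟨Nat.prime_two⟩
  by_cases hn0 : n = 0
  · haveI : IsEmpty Ω := Fintype.card_eq_zero_iff.1 (hn.trans hn0)
    have : x = 1 := Subsingleton.elim _ _
    rw [this]; exact (T : Subgroup (Perm Ω)).one_mem
  let N := Subgroup.normalizer ((T : Subgroup (Perm Ω)) : Set (Perm Ω))
  let M := {t // t ∈ MM (T : Subgroup (Perm Ω))}
  let f := act (T : Subgroup (Perm Ω))
  let T' : Subgroup N := (T : Subgroup (Perm Ω)).subgroupOf N
  have hcM : Fintype.card M = n / 2 := by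
    rw [Fintype.card_coe, card_MM, hn]
  -- the image of T
  have hcard : Nat.card (T'.map f) = 2 ^ (Nat.card (Perm M)).factorization 2 := by
    have hp : IsPGroup 2 (T'.map f) := by
      have h1 : IsPGroup 2 T' := T.isPGroup'.comap_of_injective N.subtype N.subtype_injective
      exact h1.map f
    obtain ⟨k, hk⟩ := IsPGroup.iff_card.1 hp
    have h1 : Nat.card (Perm M) = (n / 2).factorial := by
      rw [Nat.card_perm, Nat.card_eq_fintype_card, hcM]
    have h2 : k ≤ (Nat.card (Perm M)).factorization 2 := by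
      rw [← Nat.Prime.pow_dvd_iff_le_factorization Nat.prime_two Nat.card_pos.ne', ← hk]
      exact Subgroup.card_subgroup_dvd_card _
    -- lower bound
    let g : T' →* Perm M := f.comp T'.subtype
    have h3 := Subgroup.card_eq_card_quotient_mul_card_subgroup g.ker
    have h4 : Nat.card (T' ⧸ g.ker) = Nat.card (T'.map f) := by
      rw [Nat.card_congr (QuotientGroup.quotientKerEquivRange g).toEquiv]
      have : g.range = T'.map f := by
        ext y
        constructor
        · rintro ⟨z, rfl⟩; exact ⟨z.1, z.2, rfl⟩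
        · rintro ⟨z, hz, rfl⟩; exact ⟨⟨z, hz⟩, rfl⟩
      rw [this]
    have h5 : Nat.card g.ker ≤ 2 ^ (n / 2) := by
      let K : Subgroup (Perm Ω) := (g.ker.map T'.subtype).map N.subtype
      have h6 : Nat.card K = Nat.card g.ker := by
        have a1 : Nat.card (g.ker.map T'.subtype) = Nat.card g.ker :=
          (Nat.card_congr (g.ker.equivMapOfInjective _ T'.subtype_injective).toEquiv).symm
        rw [← a1]
        exact (Nat.card_congr ((g.ker.map T'.subtype).equivMapOfInjective _
          N.subtype_injective).toEquiv).symm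
      rw [← h6, ← hn]
      apply card_ker_le T
      rintro _ ⟨_, ⟨y, hy, rfl⟩, rfl⟩ t ht
      have h7 : f y.1 = 1 := hy
      have h8 := act_apply _ y.1 ⟨t, ht⟩
      change ((f y.1) ⟨t, ht⟩).1 = _ at h8
      rw [h7] at h8
      change t = y.1.1 * t * y.1.1⁻¹ at h8
      change y.1.1 * t = t * y.1.1
      nth_rewrite 2 [h8]
      group
    have h6 : Nat.card T' = 2 ^ padicValNat 2 n.factorial := by
      have h7 : Nat.card T' = Nat.card (T : Subgroup (Perm Ω)) :=
        Nat.card_congr (Subgroup.subgroupOfEquivOfLe Subgroup.le_normalizer).toEquiv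
      rw [h7, Sylow.card_eq_multiplicity T, Nat.card_perm, Nat.card_eq_fintype_card, hn,
        Nat.factorization_def _ Nat.prime_two]
    rw [h4, h6, hk, val_fact] at h3
    have h7 : padicValNat 2 (n / 2).factorial ≤ k := by
      have h8 : 2 ^ (padicValNat 2 (n / 2).factorial + n / 2) ≤ 2 ^ k * 2 ^ (n / 2) := by
        rw [h3]
        exact Nat.mul_le_mul_left _ h5
      rw [← pow_add] at h8
      have h9 := (Nat.pow_le_pow_iff_right (by norm_num : 1 < 2)).1 h8
      omega
    rw [hk]
    congr 1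
    rw [h1, Nat.factorization_def _ Nat.prime_two] at h2 ⊢
    omega
  let T2 : Sylow 2 (Perm M) := Sylow.ofCard (T'.map f) hcard
  have h1 : f ⟨x, hx⟩ ∈ Subgroup.normalizer ((T2 : Subgroup (Perm M)) : Set (Perm M)) := by
    change f ⟨x, hx⟩ ∈ Subgroup.normalizer ((T'.map f : Subgroup (Perm M)) : Set (Perm M))
    have hnorm : T'.Normal := Subgroup.normal_in_normalizer
    rw [Subgroup.mem_normalizer_iff]
    intro y
    constructor
    · rintro ⟨z, hz, rfl⟩
      refine ⟨⟨x, hx⟩ * z * ⟨x, hx⟩⁻¹, hnorm.conj_mem z hz _, ?_⟩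
      rw [map_mul, map_mul, map_inv]
    · rintro ⟨z, hz, hzy⟩
      refine ⟨⟨x, hx⟩⁻¹ * z * ⟨x, hx⟩, ?_, ?_⟩
      · have := hnorm.conj_mem z hz ⟨x, hx⟩⁻¹
        rwa [inv_inv] at this
      · rw [map_mul, map_mul, map_inv, hzy]; group
  have hlt : n / 2 < n := Nat.div_lt_self (Nat.pos_of_ne_zero hn0) (by norm_num)
  have h2 := ih (n / 2) hlt M hcM T2 h1
  obtain ⟨y, hy, hyx⟩ : f ⟨x, hx⟩ ∈ T'.map f := h2
  have h3 : f (y⁻¹ * ⟨x, hx⟩) = 1 := by
    rw [map_mul, map_inv, hyx, inv_mul_cancel]
  have h4 := mem_of_act_eq_one T _ h3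
  have h5 : y.1 ∈ (T : Subgroup (Perm Ω)) := hy
  have h6 := (T : Subgroup (Perm Ω)).mul_mem h5 h4
  change y.1 * (y.1⁻¹ * x) ∈ _ at h6
  rwa [mul_inv_cancel_left] at h6

end CfsgL.SylSym
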