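import Mathlib
import Cfsg.Agent.H3.Dih

/-! Symmetric group of degree three as a group generated by two braided involutions. -/

namespace CfsgL.Misc

open Subgroup

variable {G : Type*} [Group G]

theorem braid_of_cube {d e : G} (hd2 : d * d = 1) (he2 : e * e = 1) (h : (d * e) ^ 3 = 1) :
    d * e * d = e * d * e := by
  have hdi : d⁻¹ = d := inv_eq_of_mul_eq_one_right hd2
  have hei : e⁻¹ = e := inv_eq_of_mul_eq_one_right he2
  have h3 : (d * e * d) * (e * d * e) = 1 := by
    rw [← h]; simp only [pow_succ, pow_zero, one_mul, mul_assoc]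
  have h4 := eq_inv_of_mul_eq_one_left h3
  rw [h4, mul_inv_rev, mul_inv_rev, hdi, hei, mul_assoc]

theorem dihedral_three_of_inv {d e : G} (hd2 : d * d = 1) (he2 : e * e = 1)
    (h3 : (d * e) ^ 3 = 1) (hne : d ≠ e) (hd1 : d ≠ 1) :
    Nonempty (closure ({d, e} : Set G) ≃* DihedralGroup 3) := by
  have hdi : d⁻¹ = d := inv_eq_of_mul_eq_one_right hd2
  have hei : e⁻¹ = e := inv_eq_of_mul_eq_one_right he2
  have hne1 : d * e ≠ 1 := by
    intro h
    apply hne
    rw [eq_inv_of_mul_eq_one_left h, hei]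
  haveI : Fact (Nat.Prime 3) := ⟨Nat.prime_three⟩
  have ho : orderOf (d * e) = 3 := orderOf_eq_prime h3 hne1
  have hx : d * (d * e) * d⁻¹ = (d * e)⁻¹ := by
    rw [mul_inv_rev, hdi, hei, ← mul_assoc, hd2, one_mul]
  have hn : d ∉ zpowers (d * e) := by
    intro hm
    have h1 : orderOf d ∣ orderOf (d * e) := orderOf_dvd_of_mem_zpowers hm
    have h2 : orderOf d = 2 := orderOf_eq_prime (by rw [pow_two]; exact hd2) hd1
    rw [h2, ho] at h1
    omega
  have h := CfsgH3.nonempty_dihedral_equiv 3 (d * e) d ho hd2 hx hn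
  have hcl : closure ({d * e, d} : Set G) = closure {d, e} := by
    apply le_antisymm
    · rw [closure_le]
      rintro x (rfl | hx)
      · exact mul_mem (subset_closure (by simp)) (subset_closure (by simp))
      · rw [Set.mem_singleton_iff] at hx
        rw [hx]; exact subset_closure (by simp)
    · rw [closure_le]
      rintro x (rfl | hx)
      · exact subset_closure (by simp)
      · rw [Set.mem_singleton_iff] at hx
        rw [hx]
        have : e = d⁻¹ * (d * e) := by group
        rw [this]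
        exact mul_mem (inv_mem (subset_closure (by simp))) (subset_closure (by simp))
  rw [hcl] at h
  exact h

theorem perm_three_dihedral : Nonempty (Equiv.Perm (Fin 3) ≃* DihedralGroup 3) := by
  have h := dihedral_three_of_inv (G := Equiv.Perm (Fin 3)) (d := Equiv.swap 0 1)
    (e := Equiv.swap 1 2) (by decide) (by decide) (by decide) (by decide) (by decide)
  have hcl : closure ({Equiv.swap 0 1, Equiv.swap 1 2} : Set (Equiv.Perm (Fin 3))) = ⊤ := by
    rw [eq_top_iff]
    intro x _
    have h1 : Equiv.swap 0 1 ∈ closure ({Equiv.swap 0 1, Equiv.swap 1 2} : Set (Equiv.Perm (Fin 3))) :=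
      subset_closure (by simp)
    have h2 : Equiv.swap 1 2 ∈ closure ({Equiv.swap 0 1, Equiv.swap 1 2} : Set (Equiv.Perm (Fin 3))) :=
      subset_closure (by simp)
    have key : ∀ x : Equiv.Perm (Fin 3), x = 1 ∨ x = Equiv.swap 0 1 ∨ x = Equiv.swap 1 2 ∨
        x = Equiv.swap 0 1 * Equiv.swap 1 2 ∨ x = Equiv.swap 1 2 * Equiv.swap 0 1 ∨
        x = Equiv.swap 0 1 * Equiv.swap 1 2 * Equiv.swap 0 1 := by decide
    rcases key x with rfl | rfl | rfl | rfl | rfl | rfl
    · exact one_mem _
    · exact h1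
    · exact h2
    · exact mul_mem h1 h2
    · exact mul_mem h2 h1
    · exact mul_mem (mul_mem h1 h2) h1
  obtain ⟨e⟩ := h
  rw [hcl] at e
  exact ⟨(Subgroup.topEquiv.symm).trans e⟩

theorem sym_three_of_inv {d e : G} (hd2 : d * d = 1) (he2 : e * e = 1)
    (h3 : (d * e) ^ 3 = 1) (hne : d ≠ e) (hd1 : d ≠ 1) :
    Nonempty (closure ({d, e} : Set G) ≃* Equiv.Perm (Fin 3)) := by
  obtain ⟨f⟩ := dihedral_three_of_inv hd2 he2 h3 hne hd1
  obtain ⟨g⟩ := perm_three_dihedral
  exact ⟨f.trans g.symm⟩

end CfsgL.Misc
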